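/-
Carmichael's presentation of the alternating groups: the presented group is small.
-/
import Mathlib

set_option autoImplicit false

namespace Cfsg.Agent.Lib.Helper95.Carmichael

/-- Carmichael's relations on generators indexed by `Fin (m + 1)` -/
def rels (m : ℕ) : Set (FreeGroup (Fin (m + 1))) :=
  {g : FreeGroup (Fin (m + 1)) | ∃ i : Fin (m + 1), i.val = 0 ∧ g = FreeGroup.of i ^ 3} ∪
   {g | ∃ i : Fin (m + 1), 1 ≤ i.val ∧ g = FreeGroup.of i ^ 2} ∪
   {g | ∃ i j : Fin (m + 1), j.val = i.val + 1 ∧ g = (FreeGroup.of i * FreeGroup.of j) ^ 3} ∪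
   {g | ∃ i j : Fin (m + 1), i.val + 1 < j.val ∧ g = (FreeGroup.of i * FreeGroup.of j) ^ 2}

/-- the presented group -/
abbrev G (m : ℕ) : Type := PresentedGroup (rels m)

/-- generators indexed by natural numbers -/
noncomputable def x (m i : ℕ) : G m :=
  if h : i < m + 1 then PresentedGroup.of ⟨i, h⟩ else 1

theorem x_eq (m i : ℕ) (h : i < m + 1) : x m i = PresentedGroup.of ⟨i, h⟩ := dif_pos h

theorem x0_cube (m : ℕ) : x m 0 ^ 3 = 1 := by
  rw [x_eq m 0 (by omega)]
  have : (FreeGroup.of (⟨0, by omega⟩ : Fin (m + 1))) ^ 3 ∈ rels m :=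
    Or.inl (Or.inl (Or.inl ⟨⟨0, by omega⟩, rfl, rfl⟩))
  have h := PresentedGroup.one_of_mem this
  rwa [map_pow] at h

theorem x_sq (m i : ℕ) (h1 : 1 ≤ i) (hi : i ≤ m) : x m i ^ 2 = 1 := by
  rw [x_eq m i (by omega)]
  have : (FreeGroup.of (⟨i, by omega⟩ : Fin (m + 1))) ^ 2 ∈ rels m :=
    Or.inl (Or.inl (Or.inr ⟨⟨i, by omega⟩, h1, rfl⟩))
  have h := PresentedGroup.one_of_mem this
  rwa [map_pow] at h

theorem x_braid3 (m i : ℕ) (hi : i + 1 ≤ m) : (x m i * x m (i + 1)) ^ 3 = 1 := by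
  rw [x_eq m i (by omega), x_eq m (i + 1) (by omega)]
  have : (FreeGroup.of (⟨i, by omega⟩ : Fin (m + 1)) *
      FreeGroup.of (⟨i + 1, by omega⟩ : Fin (m + 1))) ^ 3 ∈ rels m :=
    Or.inl (Or.inr ⟨⟨i, by omega⟩, ⟨i + 1, by omega⟩, rfl, rfl⟩)
  have h := PresentedGroup.one_of_mem this
  rwa [map_pow, map_mul] at h

theorem x_far2 (m i j : ℕ) (hij : i + 2 ≤ j) (hj : j ≤ m) : (x m i * x m j) ^ 2 = 1 := by
  rw [x_eq m i (by omega), x_eq m j (by omega)]
  have : (FreeGroup.of (⟨i, by omega⟩ : Fin (m + 1)) *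
      FreeGroup.of (⟨j, by omega⟩ : Fin (m + 1))) ^ 2 ∈ rels m :=
    Or.inr ⟨⟨i, by omega⟩, ⟨j, by omega⟩, by show i + 1 < j; omega, rfl⟩
  have h := PresentedGroup.one_of_mem this
  rwa [map_pow, map_mul] at h

/-! ### generic consequences of the relations -/

section generic

variable {Γ : Type*} [Group Γ]

theorem inv_of_sq {a : Γ} (ha : a ^ 2 = 1) : a⁻¹ = a := by
  rw [inv_eq_iff_mul_eq_one, ← sq, ha]

theorem comm_of {a b : Γ} (ha : a ^ 2 = 1) (hb : b ^ 2 = 1) (hab : (a * b) ^ 2 = 1) :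
    a * b = b * a := by
  have h1 : (a * b)⁻¹ = a * b := inv_of_sq hab
  rw [mul_inv_rev, inv_of_sq ha, inv_of_sq hb] at h1
  exact h1.symm

theorem braid_of {a b : Γ} (ha : a ^ 2 = 1) (hb : b ^ 2 = 1) (hab : (a * b) ^ 3 = 1) :
    a * b * a = b * a * b := by
  have h1 : a * b * a * (b * a * b) = 1 := by
    rw [← hab]; simp only [pow_succ, pow_zero, one_mul, mul_assoc]
  have h2 := eq_inv_of_mul_eq_one_left h1
  rw [h2, mul_inv_rev, mul_inv_rev, inv_of_sq ha, inv_of_sq hb, mul_assoc]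

theorem inv_of {z a : Γ} (ha : a ^ 2 = 1) (h : (z * a) ^ 2 = 1) :
    a * z = z⁻¹ * a ∧ a * z⁻¹ = z * a := by
  have hai := inv_of_sq ha
  have h1 : z * (a * z * a) = 1 := by
    rw [← h]; simp only [pow_succ, pow_zero, one_mul, mul_assoc]
  have h2 : a * z * a = z⁻¹ := eq_inv_of_mul_eq_one_right h1
  have e1 : a * z = z⁻¹ * a := by
    have : a * z = (a * z * a) * a⁻¹ := by rw [mul_inv_cancel_right]
    rw [this, h2, hai]
  refine ⟨e1, ?_⟩
  have h3 : z * a * z = a := by rw [mul_assoc, e1, mul_inv_cancel_left]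
  rw [mul_inv_eq_iff_eq_mul]
  exact h3.symm

theorem rel01_of {z a : Γ} (ha : a ^ 2 = 1) (h : (z * a) ^ 3 = 1) :
    a * z * a = z⁻¹ * a * z⁻¹ ∧ a * z⁻¹ * a = z * a * z := by
  have hai := inv_of_sq ha
  have h1 : z * a * z * (a * z * a) = 1 := by
    rw [← h]; simp only [pow_succ, pow_zero, one_mul, mul_assoc]
  have e1 : a * z * a = z⁻¹ * a * z⁻¹ := by
    rw [eq_inv_of_mul_eq_one_right h1, mul_inv_rev, mul_inv_rev, hai, mul_assoc]
  refine ⟨e1, ?_⟩
  have h2 : a * z⁻¹ * a = (a * z * a)⁻¹ := by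
    rw [mul_inv_rev, mul_inv_rev, hai, mul_assoc]
  rw [h2, e1, mul_inv_rev, mul_inv_rev, inv_inv, hai, mul_assoc]

end generic

theorem x_inv (m i : ℕ) (h1 : 1 ≤ i) (hi : i ≤ m) : (x m i)⁻¹ = x m i :=
  inv_of_sq (x_sq m i h1 hi)

theorem x_mul_self (m i : ℕ) (h1 : 1 ≤ i) (hi : i ≤ m) : x m i * x m i = 1 := by
  rw [← sq]; exact x_sq m i h1 hi

theorem x_comm (m i j : ℕ) (h1 : 1 ≤ i) (hij : i + 2 ≤ j) (hj : j ≤ m) :
    x m i * x m j = x m j * x m i :=
  comm_of (x_sq m i h1 (by omega)) (x_sq m j (by omega) hj) (x_far2 m i j hij hj)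

theorem x_braid (m i : ℕ) (h1 : 1 ≤ i) (hi : i + 1 ≤ m) :
    x m i * x m (i + 1) * x m i = x m (i + 1) * x m i * x m (i + 1) :=
  braid_of (x_sq m i h1 (by omega)) (x_sq m (i + 1) (by omega) hi) (x_braid3 m i hi)

theorem x_inv0 (m j : ℕ) (h2 : 2 ≤ j) (hj : j ≤ m) :
    x m j * x m 0 = (x m 0)⁻¹ * x m j ∧ x m j * (x m 0)⁻¹ = x m 0 * x m j :=
  inv_of (x_sq m j (by omega) hj) (x_far2 m 0 j (by omega) hj)

theorem x_rel01 (m : ℕ) (hm : 1 ≤ m) :
    x m 1 * x m 0 * x m 1 = (x m 0)⁻¹ * x m 1 * (x m 0)⁻¹ ∧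
      x m 1 * (x m 0)⁻¹ * x m 1 = x m 0 * x m 1 * x m 0 :=
  rel01_of (x_sq m 1 le_rfl hm) (x_braid3 m 0 (by omega))

/-- the word `x_k x_{k+1} ⋯ x_{k+l-1}` -/
noncomputable def U (m : ℕ) : ℕ → ℕ → G m
  | _, 0 => 1
  | k, l + 1 => x m k * U m (k + 1) l

theorem U_zero (m k : ℕ) : U m k 0 = 1 := rfl

theorem U_succ (m k l : ℕ) : U m k (l + 1) = x m k * U m (k + 1) l := rfl

theorem comm_U (m : ℕ) : ∀ l k i : ℕ, 1 ≤ i → i + 2 ≤ k → k + l ≤ m + 1 →
    x m i * U m k l = U m k l * x m i := by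
  intro l
  induction l with
  | zero => intro k i _ _ _; rw [U_zero, mul_one, one_mul]
  | succ l ih =>
    intro k i h1 hik hkl
    rw [U_succ, ← mul_assoc, x_comm m i k h1 hik (by omega), mul_assoc,
      ih (k + 1) i h1 (by omega) (by omega), mul_assoc]

theorem shift_U (m : ℕ) : ∀ l k i : ℕ, 1 ≤ k → k < i → i < k + l → k + l ≤ m + 1 →
    x m i * U m k l = U m k l * x m (i - 1) := by
  intro l
  induction l with
  | zero => intro k i _ h1 h2 _; omega
  | succ l ih =>
    intro k i hk hki hil hkl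
    rcases Nat.lt_or_ge (k + 1) i with h | h
    · rw [U_succ, ← mul_assoc, ← x_comm m k i hk (by omega) (by omega), mul_assoc,
        ih (k + 1) i (by omega) h (by omega) (by omega), mul_assoc]
    · have hi : i = k + 1 := by omega
      subst hi
      obtain ⟨l', rfl⟩ : ∃ l', l = l' + 1 := ⟨l - 1, by omega⟩
      have hb := x_braid m k hk (by omega)
      have hc := comm_U m l' (k + 2) k hk (by omega) (by omega)
      rw [U_succ, U_succ, Nat.add_sub_cancel]
      calc x m (k + 1) * (x m k * (x m (k + 1) * U m (k + 1 + 1) l'))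
          = (x m (k + 1) * x m k * x m (k + 1)) * U m (k + 2) l' := by
            simp only [mul_assoc]
        _ = (x m k * x m (k + 1) * x m k) * U m (k + 2) l' := by rw [hb]
        _ = x m k * x m (k + 1) * (x m k * U m (k + 2) l') := by simp only [mul_assoc]
        _ = x m k * x m (k + 1) * (U m (k + 2) l' * x m k) := by rw [hc]
        _ = x m k * (x m (k + 1) * U m (k + 1 + 1) l') * x m k := by simp only [mul_assoc]

theorem norm_U (m : ℕ) : ∀ l k : ℕ, 2 ≤ k → k + l ≤ m + 1 →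
    ∃ a b : G m, ((a = x m 0 ∧ b = (x m 0)⁻¹) ∨ (a = (x m 0)⁻¹ ∧ b = x m 0)) ∧
      x m 0 * U m k l = U m k l * a ∧ (x m 0)⁻¹ * U m k l = U m k l * b := by
  intro l
  induction l with
  | zero =>
    intro k _ _
    exact ⟨x m 0, (x m 0)⁻¹, Or.inl ⟨rfl, rfl⟩, by rw [U_zero, mul_one, one_mul],
      by rw [U_zero, mul_one, one_mul]⟩
  | succ l ih =>
    intro k hk hkl
    obtain ⟨a, b, hab, ha, hb⟩ := ih (k + 1) (by omega) (by omega)
    obtain ⟨e1, e2⟩ := x_inv0 m k hk (by omega)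
    refine ⟨b, a, ?_, ?_, ?_⟩
    · rcases hab with ⟨h1, h2⟩ | ⟨h1, h2⟩
      · exact Or.inr ⟨h2, h1⟩
      · exact Or.inl ⟨h2, h1⟩
    · rw [U_succ, ← mul_assoc, ← e2, mul_assoc, hb, mul_assoc]
    · rw [U_succ, ← mul_assoc, ← e1, mul_assoc, ha, mul_assoc]

/-! ### coset enumeration -/

/-- the union of the candidate cosets of `H` -/
def X (m : ℕ) (H : Subgroup (G m)) : Set (G m) :=
  {g | (∃ k l : ℕ, 1 ≤ k ∧ k + l = m + 1 ∧ ∃ h ∈ H, g = U m k l * h) ∨
       (∃ h ∈ H, g = x m 0 * U m 1 m * h) ∨ (∃ h ∈ H, g = (x m 0)⁻¹ * U m 1 m * h)}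

theorem one_mem_X (m : ℕ) (H : Subgroup (G m)) : (1 : G m) ∈ X m H :=
  Or.inl ⟨m + 1, 0, by omega, by omega, 1, H.one_mem, by rw [U_zero, mul_one]⟩

theorem step_pos (m : ℕ) (H : Subgroup (G m)) (hH : ∀ i < m, x m i ∈ H) (i : ℕ) (h1 : 1 ≤ i)
    (hi : i ≤ m) (g : G m) (hg : g ∈ X m H) : x m i * g ∈ X m H := by
  rcases hg with ⟨k, l, hk, hkl, h, hh, rfl⟩ | ⟨h, hh, rfl⟩ | ⟨h, hh, rfl⟩
  · rcases Nat.lt_or_ge (i + 1) k with c1 | c1
    · refine Or.inl ⟨k, l, hk, hkl, x m i * h, H.mul_mem (hH i (by omega)) hh, ?_⟩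
      rw [← mul_assoc, comm_U m l k i h1 (by omega) (by omega), mul_assoc]
    · rcases Nat.lt_or_ge i k with c2 | c2
      · have hk' : k = i + 1 := by omega
        subst hk'
        refine Or.inl ⟨i, l + 1, h1, by omega, h, hh, ?_⟩
        rw [U_succ, mul_assoc]
      · rcases Nat.lt_or_ge k i with c3 | c3
        · refine Or.inl ⟨k, l, hk, hkl, x m (i - 1) * h,
            H.mul_mem (hH (i - 1) (by omega)) hh, ?_⟩
          rw [← mul_assoc, shift_U m l k i hk c3 (by omega) (by omega), mul_assoc]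
        · have hk' : k = i := by omega
          subst hk'
          obtain ⟨l', rfl⟩ : ∃ l', l = l' + 1 := ⟨l - 1, by omega⟩
          refine Or.inl ⟨k + 1, l', by omega, by omega, h, hh, ?_⟩
          rw [U_succ, ← mul_assoc, ← mul_assoc, x_mul_self m k h1 hi, one_mul]
  · rcases Nat.lt_or_ge i 2 with c | c
    · have hi1 : i = 1 := by omega
      subst hi1
      obtain ⟨m', rfl⟩ : ∃ m', m = m' + 1 := ⟨m - 1, by omega⟩
      obtain ⟨a, b, hab, ha, hb⟩ := norm_U (m' + 1) m' 2 le_rfl (by omega)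
      obtain ⟨e1, e2⟩ := x_rel01 (m' + 1) (by omega)
      have h0 : x (m' + 1) 0 ∈ H := hH 0 (by omega)
      have hbH : b ∈ H := by
        rcases hab with ⟨_, hb'⟩ | ⟨_, hb'⟩
        · rw [hb']; exact H.inv_mem h0
        · rw [hb']; exact h0
      have hU : U (m' + 1) 1 (m' + 1) = x (m' + 1) 1 * U (m' + 1) 2 m' := rfl
      refine Or.inr (Or.inr ⟨b * h, H.mul_mem hbH hh, ?_⟩)
      rw [hU]
      calc x (m' + 1) 1 * (x (m' + 1) 0 * (x (m' + 1) 1 * U (m' + 1) 2 m') * h)
          = (x (m' + 1) 1 * x (m' + 1) 0 * x (m' + 1) 1) * U (m' + 1) 2 m' * h := by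
            simp only [mul_assoc]
        _ = (x (m' + 1) 0)⁻¹ * x (m' + 1) 1 * ((x (m' + 1) 0)⁻¹ * U (m' + 1) 2 m') * h := by
            rw [e1]; simp only [mul_assoc]
        _ = (x (m' + 1) 0)⁻¹ * (x (m' + 1) 1 * U (m' + 1) 2 m') * (b * h) := by
            rw [hb]; simp only [mul_assoc]
    · obtain ⟨e1, e2⟩ := x_inv0 m i c hi
      refine Or.inr (Or.inr ⟨x m (i - 1) * h, H.mul_mem (hH (i - 1) (by omega)) hh, ?_⟩)
      calc x m i * (x m 0 * U m 1 m * h) = (x m i * x m 0) * U m 1 m * h := by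
            simp only [mul_assoc]
        _ = (x m 0)⁻¹ * (x m i * U m 1 m) * h := by rw [e1]; simp only [mul_assoc]
        _ = (x m 0)⁻¹ * U m 1 m * (x m (i - 1) * h) := by
            rw [shift_U m m 1 i le_rfl (by omega) (by omega) (by omega)]
            simp only [mul_assoc]
  · rcases Nat.lt_or_ge i 2 with c | c
    · have hi1 : i = 1 := by omega
      subst hi1
      obtain ⟨m', rfl⟩ : ∃ m', m = m' + 1 := ⟨m - 1, by omega⟩
      obtain ⟨a, b, hab, ha, hb⟩ := norm_U (m' + 1) m' 2 le_rfl (by omega)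
      obtain ⟨e1, e2⟩ := x_rel01 (m' + 1) (by omega)
      have h0 : x (m' + 1) 0 ∈ H := hH 0 (by omega)
      have haH : a ∈ H := by
        rcases hab with ⟨ha', _⟩ | ⟨ha', _⟩
        · rw [ha']; exact h0
        · rw [ha']; exact H.inv_mem h0
      have hU : U (m' + 1) 1 (m' + 1) = x (m' + 1) 1 * U (m' + 1) 2 m' := rfl
      refine Or.inr (Or.inl ⟨a * h, H.mul_mem haH hh, ?_⟩)
      rw [hU]
      calc x (m' + 1) 1 * ((x (m' + 1) 0)⁻¹ * (x (m' + 1) 1 * U (m' + 1) 2 m') * h)
          = (x (m' + 1) 1 * (x (m' + 1) 0)⁻¹ * x (m' + 1) 1) * U (m' + 1) 2 m' * h := by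
            simp only [mul_assoc]
        _ = x (m' + 1) 0 * x (m' + 1) 1 * (x (m' + 1) 0 * U (m' + 1) 2 m') * h := by
            rw [e2]; simp only [mul_assoc]
        _ = x (m' + 1) 0 * (x (m' + 1) 1 * U (m' + 1) 2 m') * (a * h) := by
            rw [ha]; simp only [mul_assoc]
    · obtain ⟨e1, e2⟩ := x_inv0 m i c hi
      refine Or.inr (Or.inl ⟨x m (i - 1) * h, H.mul_mem (hH (i - 1) (by omega)) hh, ?_⟩)
      calc x m i * ((x m 0)⁻¹ * U m 1 m * h) = (x m i * (x m 0)⁻¹) * U m 1 m * h := by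
            simp only [mul_assoc]
        _ = x m 0 * (x m i * U m 1 m) * h := by rw [e2]; simp only [mul_assoc]
        _ = x m 0 * U m 1 m * (x m (i - 1) * h) := by
            rw [shift_U m m 1 i le_rfl (by omega) (by omega) (by omega)]
            simp only [mul_assoc]

theorem x0_mul_self (m : ℕ) : x m 0 * x m 0 = (x m 0)⁻¹ := by
  rw [eq_inv_iff_mul_eq_one, ← pow_three']
  exact x0_cube m

theorem step_zero (m : ℕ) (H : Subgroup (G m)) (hH : ∀ i < m, x m i ∈ H)
    (g : G m) (hg : g ∈ X m H) : x m 0 * g ∈ X m H := by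
  rcases hg with ⟨k, l, hk, hkl, h, hh, rfl⟩ | ⟨h, hh, rfl⟩ | ⟨h, hh, rfl⟩
  · rcases Nat.lt_or_ge k 2 with c | c
    · have hk1 : k = 1 := by omega
      subst hk1
      have hl : l = m := by omega
      subst hl
      exact Or.inr (Or.inl ⟨h, hh, by rw [mul_assoc]⟩)
    · obtain ⟨a, b, hab, ha, hb⟩ := norm_U m l k c (by omega)
      have h0 : x m 0 ∈ H := hH 0 (by omega)
      have haH : a ∈ H := by
        rcases hab with ⟨ha', _⟩ | ⟨ha', _⟩
        · rw [ha']; exact h0
        · rw [ha']; exact H.inv_mem h0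
      refine Or.inl ⟨k, l, hk, hkl, a * h, H.mul_mem haH hh, ?_⟩
      rw [← mul_assoc, ha, mul_assoc]
  · refine Or.inr (Or.inr ⟨h, hh, ?_⟩)
    rw [← x0_mul_self]
    simp only [mul_assoc]
  · refine Or.inl ⟨1, m, le_rfl, by omega, h, hh, ?_⟩
    simp only [mul_assoc, mul_inv_cancel_left]

theorem all_mem_X (m : ℕ) (H : Subgroup (G m)) (hH : ∀ i < m, x m i ∈ H) (g : G m) :
    g ∈ X m H := by
  have hg : g ∈ Subgroup.closure (Set.range (PresentedGroup.of : Fin (m + 1) → G m)) := by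
    rw [PresentedGroup.closure_range_of]; trivial
  induction hg using Subgroup.closure_induction_left with
  | one => exact one_mem_X m H
  | mul_left y hy z _ ih =>
    obtain ⟨i, rfl⟩ := hy
    have hxi : (PresentedGroup.of i : G m) = x m i.val := (x_eq m i.val i.isLt).symm
    rw [hxi]
    rcases Nat.eq_zero_or_pos i.val with h0 | h0
    · rw [h0]; exact step_zero m H hH z ih
    · exact step_pos m H hH i.val h0 (by omega) z ih
  | inv_mul_cancel y hy z _ ih =>
    obtain ⟨i, rfl⟩ := hy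
    have hxi : (PresentedGroup.of i : G m) = x m i.val := (x_eq m i.val i.isLt).symm
    rw [hxi]
    rcases Nat.eq_zero_or_pos i.val with h0 | h0
    · rw [h0, ← x0_mul_self, mul_assoc]
      exact step_zero m H hH _ (step_zero m H hH z ih)
    · rw [x_inv m i.val h0 (by omega)]
      exact step_pos m H hH i.val h0 (by omega) z ih

/-- coset representatives -/
noncomputable def rep (m : ℕ) : Option (Option (Fin (m + 1))) → G m
  | none => x m 0 * U m 1 m
  | some none => (x m 0)⁻¹ * U m 1 m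
  | some (some j) => U m (j.val + 1) (m - j.val)

theorem card_le (m : ℕ) (H : Subgroup (G m)) [Finite H] (hH : ∀ i < m, x m i ∈ H) :
    Finite (G m) ∧ Nat.card (G m) ≤ (m + 3) * Nat.card H := by
  let f : Option (Option (Fin (m + 1))) × H → G m := fun p => rep m p.1 * p.2.val
  have hf : Function.Surjective f := by
    intro g
    rcases all_mem_X m H hH g with ⟨k, l, hk, hkl, h, hh, rfl⟩ | ⟨h, hh, rfl⟩ | ⟨h, hh, rfl⟩
    · refine ⟨(some (some ⟨k - 1, by omega⟩), ⟨h, hh⟩), ?_⟩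
      show U m (k - 1 + 1) (m - (k - 1)) * h = U m k l * h
      have e1 : k - 1 + 1 = k := by omega
      have e2 : m - (k - 1) = l := by omega
      rw [e1, e2]
    · exact ⟨(none, ⟨h, hh⟩), rfl⟩
    · exact ⟨(some none, ⟨h, hh⟩), rfl⟩
  have hfin : Finite (G m) := Finite.of_surjective f hf
  refine ⟨hfin, ?_⟩
  have h1 := Nat.card_le_card_of_surjective f hf
  rw [Nat.card_prod] at h1
  have h2 : Nat.card (Option (Option (Fin (m + 1)))) = m + 3 := by
    rw [Nat.card_eq_fintype_card, Fintype.card_option, Fintype.card_option, Fintype.card_fin]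
  rwa [h2] at h1

theorem psi_rel (m : ℕ) :
    ∀ r ∈ rels m, FreeGroup.lift (fun i : Fin (m + 1) => x (m + 1) i.val) r = 1 := by
  rintro r (((⟨i, hi, rfl⟩ | ⟨i, hi, rfl⟩) | ⟨i, j, hij, rfl⟩) | ⟨i, j, hij, rfl⟩)
  · simp only [map_pow, FreeGroup.lift_apply_of]
    rw [hi]; exact x0_cube (m + 1)
  · simp only [map_pow, FreeGroup.lift_apply_of]
    exact x_sq (m + 1) i.val hi (by omega)
  · simp only [map_pow, map_mul, FreeGroup.lift_apply_of]
    rw [hij]; exact x_braid3 (m + 1) i.val (by omega)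
  · simp only [map_pow, map_mul, FreeGroup.lift_apply_of]
    exact x_far2 (m + 1) i.val j.val (by omega) (by omega)

/-- the map from the smaller presented group -/
noncomputable def psi (m : ℕ) : G m →* G (m + 1) := PresentedGroup.toGroup (psi_rel m)

theorem psi_x (m i : ℕ) (hi : i ≤ m) : psi m (x m i) = x (m + 1) i := by
  rw [x_eq m i (by omega)]
  exact PresentedGroup.toGroup.of (psi_rel m)

theorem card_bound : ∀ m : ℕ, Finite (G m) ∧ Nat.card (G m) * 2 ≤ (m + 3).factorial := by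
  intro m
  induction m with
  | zero =>
    obtain ⟨h1, h2⟩ := card_le 0 ⊥ (fun i hi => absurd hi (Nat.not_lt_zero i))
    refine ⟨h1, ?_⟩
    rw [Subgroup.card_bot] at h2
    have h6 : (0 + 3).factorial = 6 := rfl
    omega
  | succ m ih =>
    obtain ⟨hfin, hcard⟩ := ih
    have := hfin
    have : Finite (psi m).range :=
      Finite.of_surjective (psi m).rangeRestrict (psi m).rangeRestrict_surjective
    have hHc : Nat.card (psi m).range ≤ Nat.card (G m) :=
      Nat.card_le_card_of_surjective (psi m).rangeRestrict (psi m).rangeRestrict_surjective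
    obtain ⟨h1, h2⟩ := card_le (m + 1) (psi m).range
      (fun i hi => ⟨x m i, psi_x m i (by omega)⟩)
    refine ⟨h1, ?_⟩
    have hf : (m + 1 + 3).factorial = (m + 1 + 3) * (m + 3).factorial := Nat.factorial_succ (m + 3)
    rw [hf]
    calc Nat.card (G (m + 1)) * 2 ≤ (m + 1 + 3) * Nat.card (psi m).range * 2 :=
          Nat.mul_le_mul_right 2 h2
      _ ≤ (m + 1 + 3) * Nat.card (G m) * 2 :=
          Nat.mul_le_mul_right 2 (Nat.mul_le_mul_left _ hHc)
      _ = (m + 1 + 3) * (Nat.card (G m) * 2) := by ring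
      _ ≤ (m + 1 + 3) * (m + 3).factorial := Nat.mul_le_mul_left _ hcard

/-! ### the permutation side -/

section generic2

variable {Γ : Type*} [Group Γ]

theorem cube_of_braid {a b : Γ} (ha : a * a = 1) (hb : b * b = 1)
    (h : a * b * a = b * a * b) : (a * b) ^ 3 = 1 := by
  have h3 : (a * b) ^ 3 = a * b * a * (b * a * b) := by
    simp only [pow_succ, pow_zero, one_mul, mul_assoc]
  rw [h3, ← h]
  calc a * b * a * (a * b * a) = a * (b * (a * a) * b) * a := by simp only [mul_assoc]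
    _ = 1 := by rw [ha, mul_one, hb, mul_one, ha]

theorem sq_of_comm {a b : Γ} (ha : a * a = 1) (hb : b * b = 1) (h : a * b = b * a) :
    (a * b) ^ 2 = 1 := by
  rw [sq]
  calc a * b * (a * b) = a * (b * a) * b := by simp only [mul_assoc]
    _ = a * (a * b) * b := by rw [h]
    _ = (a * a) * (b * b) := by simp only [mul_assoc]
    _ = 1 := by rw [ha, hb, mul_one]

theorem conj_sq {a b : Γ} (ha : a * a = 1) (hb : b * b = 1) :
    (a * b * a) * (a * b * a) = 1 := by
  calc (a * b * a) * (a * b * a) = a * (b * (a * a) * b) * a := by simp only [mul_assoc]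
    _ = 1 := by rw [ha, mul_one, hb, mul_one, ha]

theorem conj_comm {a b c : Γ} (hac : a * c = c * a) (hbc : b * c = c * b) :
    (a * b * a) * c = c * (a * b * a) := by
  calc (a * b * a) * c = a * b * (a * c) := by simp only [mul_assoc]
    _ = a * (b * c) * a := by rw [hac]; simp only [mul_assoc]
    _ = (a * c) * b * a := by rw [hbc]; simp only [mul_assoc]
    _ = c * (a * b * a) := by rw [hac]; simp only [mul_assoc]

theorem conj_braid {a b c : Γ} (ha : a * a = 1) (hac : a * c = c * a)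
    (hbc : b * c * b = c * b * c) :
    (a * b * a) * c * (a * b * a) = c * (a * b * a) * c := by
  calc (a * b * a) * c * (a * b * a) = a * b * (a * c) * a * b * a := by simp only [mul_assoc]
    _ = a * b * (c * a) * a * b * a := by rw [hac]
    _ = a * b * c * (a * a) * b * a := by simp only [mul_assoc]
    _ = a * (b * c * b) * a := by rw [ha, mul_one]; simp only [mul_assoc]
    _ = a * (c * b * c) * a := by rw [hbc]
    _ = (a * c) * b * (c * a) := by simp only [mul_assoc]
    _ = (c * a) * b * (a * c) := by rw [hac]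
    _ = c * (a * b * a) * c := by simp only [mul_assoc]

end generic2

theorem swap_braid {α : Type*} [DecidableEq α] {a b c : α} (hab : a ≠ b) (hac : a ≠ c)
    (hbc : b ≠ c) :
    Equiv.swap a b * Equiv.swap b c * Equiv.swap a b =
      Equiv.swap b c * Equiv.swap a b * Equiv.swap b c := by
  have h1 : Equiv.swap a b * Equiv.swap b c * Equiv.swap a b = Equiv.swap a c := by
    have := Equiv.swap_mul_swap_mul_swap (x := c) (y := b) (z := a) hbc.symm hac.symm
    rwa [Equiv.swap_comm b a, Equiv.swap_comm c b] at this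
  have h2 : Equiv.swap b c * Equiv.swap a b * Equiv.swap b c = Equiv.swap a c := by
    have := Equiv.swap_mul_swap_mul_swap (x := a) (y := b) (z := c) hab hac
    rwa [Equiv.swap_comm c a] at this
  rw [h1, h2]

/-- adjacent transpositions -/
def adj (m j : ℕ) : Equiv.Perm (Fin (m + 3)) :=
  if h : j + 1 < m + 3 then Equiv.swap ⟨j, by omega⟩ ⟨j + 1, h⟩ else 1

theorem adj_mul_self (m j : ℕ) : adj m j * adj m j = 1 := by
  unfold adj
  split_ifs
  · exact Equiv.swap_mul_self _ _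
  · exact one_mul 1

theorem adj_inv (m j : ℕ) : (adj m j)⁻¹ = adj m j :=
  inv_eq_of_mul_eq_one_right (adj_mul_self m j)

theorem adj_comm (m j k : ℕ) (hjk : j + 2 ≤ k) : adj m j * adj m k = adj m k * adj m j := by
  unfold adj
  by_cases hk : k + 1 < m + 3
  · rw [dif_pos hk, dif_pos (by omega : j + 1 < m + 3)]
    apply Equiv.Perm.Disjoint.commute
    apply Equiv.Perm.disjoint_swap_swap
    simp [Fin.ext_iff]
    omega
  · rw [dif_neg hk, mul_one, one_mul]

theorem adj_braid (m j : ℕ) (hj : j + 2 < m + 3) :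
    adj m j * adj m (j + 1) * adj m j = adj m (j + 1) * adj m j * adj m (j + 1) := by
  unfold adj
  rw [dif_pos (by omega : j + 1 < m + 3), dif_pos (by omega : j + 1 + 1 < m + 3)]
  exact swap_braid (by simp only [ne_eq, Fin.mk.injEq]; omega)
    (by simp only [ne_eq, Fin.mk.injEq]; omega) (by simp only [ne_eq, Fin.mk.injEq]; omega)

theorem adj_sign (m j : ℕ) (hj : j + 1 < m + 3) : Equiv.Perm.sign (adj m j) = -1 := by
  unfold adj
  rw [dif_pos hj]
  exact Equiv.Perm.sign_swap (by simp only [ne_eq, Fin.mk.injEq]; omega)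

/-- the images of the generators -/
def yy (m i : ℕ) : Equiv.Perm (Fin (m + 3)) := adj m 0 * adj m (i + 1)

theorem yy_cube0 (m : ℕ) : yy m 0 ^ 3 = 1 :=
  cube_of_braid (adj_mul_self m 0) (adj_mul_self m 1) (adj_braid m 0 (by omega))

theorem yy_sq (m i : ℕ) (h1 : 1 ≤ i) : yy m i ^ 2 = 1 :=
  sq_of_comm (adj_mul_self m 0) (adj_mul_self m (i + 1)) (adj_comm m 0 (i + 1) (by omega))

theorem yy_mul (m i j : ℕ) (h1 : 1 ≤ i) : yy m i * yy m j = adj m (i + 1) * adj m (j + 1) := by
  unfold yy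
  calc adj m 0 * adj m (i + 1) * (adj m 0 * adj m (j + 1))
      = (adj m 0 * adj m (i + 1)) * adj m 0 * adj m (j + 1) := by simp only [mul_assoc]
    _ = (adj m (i + 1) * adj m 0) * adj m 0 * adj m (j + 1) := by
        rw [adj_comm m 0 (i + 1) (by omega)]
    _ = adj m (i + 1) * (adj m 0 * adj m 0) * adj m (j + 1) := by simp only [mul_assoc]
    _ = adj m (i + 1) * adj m (j + 1) := by rw [adj_mul_self, mul_one]

theorem yy_mul0 (m j : ℕ) :
    yy m 0 * yy m j = (adj m 0 * adj m 1 * adj m 0) * adj m (j + 1) := by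
  unfold yy
  simp only [mul_assoc]

theorem yy_braid3 (m i : ℕ) (hi : i + 1 ≤ m) : (yy m i * yy m (i + 1)) ^ 3 = 1 := by
  rcases Nat.eq_zero_or_pos i with h0 | h0
  · subst h0
    rw [yy_mul0]
    exact cube_of_braid (conj_sq (adj_mul_self m 0) (adj_mul_self m 1)) (adj_mul_self m 2)
      (conj_braid (adj_mul_self m 0) (adj_comm m 0 2 le_rfl) (adj_braid m 1 (by omega)))
  · rw [yy_mul m i (i + 1) h0]
    exact cube_of_braid (adj_mul_self m (i + 1)) (adj_mul_self m (i + 1 + 1))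
      (adj_braid m (i + 1) (by omega))

theorem yy_far2 (m i j : ℕ) (hij : i + 2 ≤ j) : (yy m i * yy m j) ^ 2 = 1 := by
  rcases Nat.eq_zero_or_pos i with h0 | h0
  · subst h0
    rw [yy_mul0]
    exact sq_of_comm (conj_sq (adj_mul_self m 0) (adj_mul_self m 1)) (adj_mul_self m (j + 1))
      (conj_comm (adj_comm m 0 (j + 1) (by omega)) (adj_comm m 1 (j + 1) (by omega)))
  · rw [yy_mul m i j h0]
    exact sq_of_comm (adj_mul_self m (i + 1)) (adj_mul_self m (j + 1))
      (adj_comm m (i + 1) (j + 1) (by omega))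

theorem yy_even (m i : ℕ) (hi : i ≤ m) : yy m i ∈ alternatingGroup (Fin (m + 3)) := by
  rw [Equiv.Perm.mem_alternatingGroup]
  unfold yy
  rw [map_mul, adj_sign m 0 (by omega), adj_sign m (i + 1) (by omega)]
  rfl

theorem yy_rel (m : ℕ) :
    ∀ r ∈ rels m, FreeGroup.lift (fun i : Fin (m + 1) => yy m i.val) r = 1 := by
  rintro r (((⟨i, hi, rfl⟩ | ⟨i, hi, rfl⟩) | ⟨i, j, hij, rfl⟩) | ⟨i, j, hij, rfl⟩)
  · simp only [map_pow, FreeGroup.lift_apply_of]
    rw [hi]; exact yy_cube0 m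
  · simp only [map_pow, FreeGroup.lift_apply_of]
    exact yy_sq m i.val hi
  · simp only [map_pow, map_mul, FreeGroup.lift_apply_of]
    rw [hij]; exact yy_braid3 m i.val (by omega)
  · simp only [map_pow, map_mul, FreeGroup.lift_apply_of]
    exact yy_far2 m i.val j.val (by omega)

/-- the map to the symmetric group -/
noncomputable def phi0 (m : ℕ) : G m →* Equiv.Perm (Fin (m + 3)) :=
  PresentedGroup.toGroup (yy_rel m)

theorem phi0_of (m : ℕ) (i : Fin (m + 1)) : phi0 m (PresentedGroup.of i) = yy m i.val :=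
  PresentedGroup.toGroup.of (yy_rel m)

theorem phi0_x (m i : ℕ) (hi : i ≤ m) : phi0 m (x m i) = yy m i := by
  rw [x_eq m i (by omega)]
  exact phi0_of m ⟨i, by omega⟩

theorem phi0_mem (m : ℕ) (g : G m) : phi0 m g ∈ alternatingGroup (Fin (m + 3)) := by
  have hg : g ∈ Subgroup.closure (Set.range (PresentedGroup.of : Fin (m + 1) → G m)) := by
    rw [PresentedGroup.closure_range_of]; trivial
  induction hg using Subgroup.closure_induction with
  | mem y hy =>
    obtain ⟨i, rfl⟩ := hy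
    rw [phi0_of]
    exact yy_even m i.val (by omega)
  | one => rw [map_one]; exact one_mem _
  | mul a b _ _ ha hb => rw [map_mul]; exact mul_mem ha hb
  | inv a _ ha => rw [map_inv]; exact inv_mem ha

/-- the map to the alternating group -/
noncomputable def phi (m : ℕ) : G m →* alternatingGroup (Fin (m + 3)) :=
  (phi0 m).codRestrict _ (phi0_mem m)

theorem mem_or (m : ℕ) (σ : Equiv.Perm (Fin (m + 3))) :
    σ ∈ (phi0 m).range ∨ σ * adj m 0 ∈ (phi0 m).range := by
  refine Submonoid.induction_of_closure_eq_top_right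
    (motive := fun σ => σ ∈ (phi0 m).range ∨ σ * adj m 0 ∈ (phi0 m).range)
    (Equiv.Perm.mclosure_swap_castSucc_succ (m + 2)) σ ?_ ?_
  · exact Or.inl (one_mem _)
  · rintro σ τ ⟨i, rfl⟩ ih
    have hτ : Equiv.swap i.castSucc i.succ = adj m i.val := by
      unfold adj
      rw [dif_pos (by omega)]
      rfl
    show σ * Equiv.swap i.castSucc i.succ ∈ (phi0 m).range ∨
      σ * Equiv.swap i.castSucc i.succ * adj m 0 ∈ (phi0 m).range
    rw [hτ]
    rcases Nat.eq_zero_or_pos i.val with h0 | h0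
    · rw [h0]
      rcases ih with h | h
      · refine Or.inr ?_
        rw [mul_assoc, adj_mul_self, mul_one]
        exact h
      · exact Or.inl h
    · obtain ⟨k, hk⟩ : ∃ k, i.val = k + 1 := ⟨i.val - 1, by omega⟩
      rw [hk]
      have hy : yy m k ∈ (phi0 m).range := ⟨x m k, phi0_x m k (by omega)⟩
      rcases ih with h | h
      · refine Or.inr ?_
        have e : σ * adj m (k + 1) * adj m 0 = σ * (yy m k)⁻¹ := by
          unfold yy
          rw [mul_inv_rev, adj_inv, adj_inv, mul_assoc]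
        rw [e]
        exact mul_mem h (inv_mem hy)
      · refine Or.inl ?_
        have e : σ * adj m (k + 1) = σ * adj m 0 * yy m k := by
          unfold yy
          rw [mul_assoc, ← mul_assoc (adj m 0), adj_mul_self, one_mul]
        rw [e]
        exact mul_mem h hy

theorem phi_surj (m : ℕ) : Function.Surjective (phi m) := by
  rintro ⟨σ, hσ⟩
  have h1 : σ ∈ (phi0 m).range := by
    rcases mem_or m σ with h | h
    · exact h
    · exfalso
      obtain ⟨g, hg⟩ := h
      have h2 := phi0_mem m g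
      rw [hg, Equiv.Perm.mem_alternatingGroup, map_mul,
        Equiv.Perm.mem_alternatingGroup.mp hσ, one_mul, adj_sign m 0 (by omega)] at h2
      exact absurd h2 (by decide)
  obtain ⟨g, hg⟩ := h1
  exact ⟨g, Subtype.ext hg⟩

theorem carmichael (m : ℕ) : Nonempty (G m ≃* alternatingGroup (Fin (m + 3))) := by
  obtain ⟨hfin, hcard⟩ := card_bound m
  have := hfin
  have hA : Nat.card (alternatingGroup (Fin (m + 3))) * 2 = (m + 3).factorial := by
    have h := two_mul_nat_card_alternatingGroup (α := Fin (m + 3))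
    rw [Nat.card_perm, Nat.card_fin] at h
    omega
  have hb : Function.Bijective (phi m) :=
    (phi_surj m).bijective_of_nat_card_le (by omega)
  exact ⟨MulEquiv.ofBijective (phi m) hb⟩

end Cfsg.Agent.Lib.Helper95.Carmichael
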