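/-
Pronormal subgroups: Sylow subgroups, subgroups of prime index, and subgroups containing the
normaliser of a Sylow subgroup are pronormal.
-/
import Mathlib
import Cfsg.Prelude.Def_HallClasses

set_option autoImplicit false
set_option linter.unusedSectionVars false

namespace Cfsg.Agent.Lib.Helper95.Pronormal

universe u

variable {G : Type u} [Group G]

theorem map_conj_eq (H : Subgroup G) (g k : G)
    (h1 : ∀ z ∈ H, (k⁻¹ * g) * z * (k⁻¹ * g)⁻¹ ∈ H)
    (h2 : ∀ z ∈ H, (k⁻¹ * g)⁻¹ * z * (k⁻¹ * g) ∈ H) :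
    H.map (MulAut.conj g).toMonoidHom = H.map (MulAut.conj k).toMonoidHom := by
  ext y
  simp only [Subgroup.mem_map, MulEquiv.coe_toMonoidHom, MulAut.conj_apply]
  constructor
  · rintro ⟨z, hz, rfl⟩
    exact ⟨_, h1 z hz, by group⟩
  · rintro ⟨z, hz, rfl⟩
    exact ⟨_, h2 z hz, by group⟩

theorem pronormal_top : Cfsg.IsPronormal (⊤ : Subgroup G) := by
  intro g
  exact ⟨g, by simp, rfl⟩

/-- two Sylow subgroups of `G` inside `K` are conjugate in `K` -/
theorem exists_conj [Finite G] {p : ℕ} [Fact p.Prime] (S : Sylow p G) (K : Subgroup G)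
    (hS : (S : Subgroup G) ≤ K) (g : G) (hg : ∀ s ∈ S, g * s * g⁻¹ ∈ K) :
    ∃ k ∈ K, (k⁻¹ * g) • S = S := by
  have hgK : ((g • S : Sylow p G) : Subgroup G) ≤ K := by
    intro y hy
    rw [Sylow.coe_subgroup_smul, Subgroup.mem_smul_pointwise_iff_exists] at hy
    obtain ⟨s, hs, rfl⟩ := hy
    rw [MulAut.smul_def, MulAut.conj_apply]
    exact hg s hs
  obtain ⟨k, hk⟩ := MulAction.exists_smul_eq K (S.subtype hS) ((g • S).subtype hgK)
  rw [Sylow.smul_subtype] at hk
  have h1 : k • S = g • S := Sylow.subtype_injective hk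
  have h2 : (k : G) • S = g • S := h1
  refine ⟨k, k.2, ?_⟩
  rw [mul_smul, ← h2, inv_smul_smul]

theorem pronormal_of_sylow [Finite G] {p : ℕ} [Fact p.Prime] (S : Sylow p G) :
    Cfsg.IsPronormal (S : Subgroup G) := by
  intro g
  obtain ⟨k, hk, hk2⟩ := exists_conj S
    ((S : Subgroup G) ⊔ (S : Subgroup G).map (MulAut.conj g).toMonoidHom) le_sup_left g
    (fun s hs => (le_sup_right : (S : Subgroup G).map (MulAut.conj g).toMonoidHom ≤ _)
      (Subgroup.mem_map.mpr ⟨s, hs, rfl⟩))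
  have h3 := Sylow.smul_eq_iff_mem_normalizer.mp hk2
  refine ⟨k, hk, map_conj_eq _ g k ?_ ?_⟩
  · intro z hz
    exact (Subgroup.mem_normalizer_iff.mp h3 z).mp hz
  · intro z hz
    exact (Subgroup.mem_normalizer_iff''.mp h3 z).mp hz

/-- A subgroup containing the normaliser of one of its Sylow subgroups which is Sylow in `G`
is pronormal. -/
theorem pronormal_of_sylow_normalizer [Finite G] {p : ℕ} [Fact p.Prime] (H : Subgroup G)
    (S : Sylow p G) (hS : (S : Subgroup G) ≤ H)
    (hN : ∀ x : G, (∀ s ∈ S, x * s * x⁻¹ ∈ S) → x ∈ H) : Cfsg.IsPronormal H := by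
  intro g
  obtain ⟨k, hk, hk2⟩ := exists_conj S
    (H ⊔ H.map (MulAut.conj g).toMonoidHom) (hS.trans le_sup_left) g
    (fun s hs => (le_sup_right : H.map (MulAut.conj g).toMonoidHom ≤ _)
      (Subgroup.mem_map.mpr ⟨s, hS hs, rfl⟩))
  have h3 := Sylow.smul_eq_iff_mem_normalizer.mp hk2
  have h4 : k⁻¹ * g ∈ H := hN _ (fun s hs => (Subgroup.mem_normalizer_iff.mp h3 s).mp hs)
  refine ⟨k, hk, map_conj_eq _ g k ?_ ?_⟩
  · intro z hz
    exact mul_mem (mul_mem h4 hz) (inv_mem h4)
  · intro z hz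
    exact mul_mem (mul_mem (inv_mem h4) hz) h4

theorem pronormal_of_prime_index [Finite G] (H : Subgroup G) (hp : H.index.Prime) :
    Cfsg.IsPronormal H := by
  intro g
  have hHK : H ≤ H ⊔ H.map (MulAut.conj g).toMonoidHom := le_sup_left
  have h1 := Subgroup.relIndex_mul_index hHK
  rcases (Nat.dvd_prime hp).mp (Dvd.intro_left _ h1) with h | h
  · have h2 : H ⊔ H.map (MulAut.conj g).toMonoidHom = ⊤ := Subgroup.index_eq_one.mp h
    exact ⟨g, h2 ▸ Subgroup.mem_top g, rfl⟩
  · have h2 : H.relIndex (H ⊔ H.map (MulAut.conj g).toMonoidHom) = 1 := by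
      rw [h] at h1
      have hpos := hp.pos
      exact Nat.eq_of_mul_eq_mul_right hpos (by rw [h1, one_mul])
    have h3 : H ⊔ H.map (MulAut.conj g).toMonoidHom ≤ H := Subgroup.relIndex_eq_one.mp h2
    have h4 : H.map (MulAut.conj g).toMonoidHom ≤ H := le_sup_right.trans h3
    refine ⟨1, one_mem _, ?_⟩
    have h5 : H.map (MulAut.conj g).toMonoidHom = H := by
      apply Subgroup.eq_of_le_of_card_ge h4
      rw [Subgroup.card_map_of_injective (MulAut.conj g).injective]
    rw [h5]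
    ext y
    simp

/-- a subgroup of index prime to `p` contains a Sylow `p`-subgroup of `G` -/
theorem exists_sylow_le [Finite G] {p : ℕ} [Fact p.Prime] (H : Subgroup G)
    (hH : ¬ p ∣ H.index) : ∃ S : Sylow p G, (S : Subgroup G) ≤ H := by
  obtain ⟨SH⟩ : Nonempty (Sylow p H) := inferInstance
  have h1 : IsPGroup p ((SH : Subgroup H).map H.subtype) := SH.isPGroup'.map _
  have h2 : ¬ p ∣ ((SH : Subgroup H).map H.subtype).index := by
    rw [Subgroup.index_map_subtype]
    intro h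
    rcases (Nat.Prime.dvd_mul Fact.out).mp h with h | h
    · exact SH.not_dvd_index h
    · exact hH h
  refine ⟨h1.toSylow h2, ?_⟩
  rw [IsPGroup.toSylow_coe]
  exact Subgroup.map_subtype_le _

end Cfsg.Agent.Lib.Helper95.Pronormal
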