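-- Singer groups: multiplications by the non-zero elements of a field extension K/F inside GL_F(K).
import Mathlib

set_option autoImplicit false

namespace Cfsg.Agent.Lib.Helper95

open Module

variable {F K : Type*} [Field F] [Field K] [Algebra F K]

/-- The Singer group of multiplications by non-zero elements of `K`, inside `GL_F(K)`. -/
abbrev singer (F K : Type*) [Field F] [Field K] [Algebra F K] : Subgroup (Module.End F K)ˣ :=
  (Units.map ((Algebra.lmul F K : K →ₐ[F] Module.End F K) : K →* Module.End F K)).range

/-- Multiplication by a non-zero element, as a unit of `End_F(K)`. -/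
abbrev mulUnit (F : Type*) {K : Type*} [Field F] [Field K] [Algebra F K] (a : Kˣ) :
    (Module.End F K)ˣ :=
  Units.map ((Algebra.lmul F K : K →ₐ[F] Module.End F K) : K →* Module.End F K) a

lemma mulUnit_apply (a : Kˣ) (x : K) :
    ((mulUnit F a : (Module.End F K)ˣ) : Module.End F K) x = a * x := by
  simp

lemma mem_singer_iff (h : (Module.End F K)ˣ) :
    h ∈ singer F K ↔ ∃ a : Kˣ, ∀ x : K, (h : Module.End F K) x = a * x := by
  constructor
  · rintro ⟨a, rfl⟩
    exact ⟨a, fun x => by simp⟩
  · rintro ⟨a, ha⟩
    refine ⟨a, Units.ext (LinearMap.ext fun x => ?_)⟩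
    rw [ha]
    simp

lemma unit_inv_apply (g : (Module.End F K)ˣ) (x : K) :
    ((g⁻¹ : (Module.End F K)ˣ) : Module.End F K) ((g : Module.End F K) x) = x := by
  have h : ((g⁻¹ * g : (Module.End F K)ˣ) : Module.End F K) x = x := by simp
  rwa [Units.val_mul, Module.End.mul_apply] at h

lemma unit_apply_inv (g : (Module.End F K)ˣ) (x : K) :
    (g : Module.End F K) (((g⁻¹ : (Module.End F K)ˣ) : Module.End F K) x) = x := by
  have h : ((g * g⁻¹ : (Module.End F K)ˣ) : Module.End F K) x = x := by simp
  rwa [Units.val_mul, Module.End.mul_apply] at h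

lemma finite_end [Finite K] : Finite (Module.End F K) :=
  Finite.of_injective (fun f : Module.End F K => (f : K → K)) DFunLike.coe_injective

lemma finite_end_units [Finite K] : Finite (Module.End F K)ˣ :=
  haveI := finite_end (F := F) (K := K)
  Finite.of_injective Units.val Units.val_injective

/-- An algebra automorphism as a unit of `End_F(K)`. -/
def autUnit (σ : K ≃ₐ[F] K) : (Module.End F K)ˣ :=
  ⟨σ.toLinearMap, σ.symm.toLinearMap, by ext x; simp, by ext x; simp⟩

lemma autUnit_apply (σ : K ≃ₐ[F] K) (x : K) :
    ((autUnit σ : (Module.End F K)ˣ) : Module.End F K) x = σ x := rfl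

/-- The semilinear map `x ↦ b * σ x`. -/
def semi (p : Kˣ × (K ≃ₐ[F] K)) : (Module.End F K)ˣ := mulUnit F p.1 * autUnit p.2

lemma semi_apply (p : Kˣ × (K ≃ₐ[F] K)) (x : K) :
    ((semi p : (Module.End F K)ˣ) : Module.End F K) x = p.1 * p.2 x := by
  unfold semi
  rw [Units.val_mul, Module.End.mul_apply, mulUnit_apply, autUnit_apply]

lemma semi_injective : Function.Injective (semi (F := F) (K := K)) := by
  intro p q h
  have h1 : ∀ x : K, (p.1 : K) * p.2 x = q.1 * q.2 x := by
    intro x
    rw [← semi_apply, ← semi_apply, h]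
  have h2 : p.1 = q.1 := by
    have := h1 1
    simp only [map_one, mul_one] at this
    exact Units.ext this
  refine Prod.ext h2 (AlgEquiv.ext fun x => ?_)
  have h3 := h1 x
  rw [h2] at h3
  exact mul_left_cancel₀ q.1.ne_zero h3

lemma semi_mem_normalizer (p : Kˣ × (K ≃ₐ[F] K)) :
    semi p ∈ Subgroup.normalizer (singer F K : Set (Module.End F K)ˣ) := by
  rw [Subgroup.mem_normalizer_iff]
  intro h
  rw [mem_singer_iff, mem_singer_iff]
  constructor
  · rintro ⟨a, ha⟩
    refine ⟨Units.map (p.2 : K →* K) a, fun y => ?_⟩
    have hy : y = (semi p : Module.End F K)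
        ((((semi p)⁻¹ : (Module.End F K)ˣ) : Module.End F K) y) := (unit_apply_inv _ _).symm
    rw [Units.val_mul, Units.val_mul, Module.End.mul_apply, Module.End.mul_apply]
    conv_rhs => rw [hy]
    rw [semi_apply, semi_apply, ha, map_mul]
    simp only [Units.coe_map, MonoidHom.coe_coe]
    ring
  · rintro ⟨c, hc⟩
    refine ⟨Units.map (p.2.symm : K →* K) c, fun x => ?_⟩
    have h1 := hc ((semi p : Module.End F K) x)
    rw [Units.val_mul, Units.val_mul, Module.End.mul_apply, Module.End.mul_apply, unit_inv_apply,
      semi_apply, semi_apply] at h1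
    have h2 : p.2 ((h : Module.End F K) x) = c * p.2 x := by
      apply mul_left_cancel₀ p.1.ne_zero
      rw [h1]
      ring
    have h3 : (h : Module.End F K) x = p.2.symm (c * p.2 x) := by
      rw [← h2, AlgEquiv.symm_apply_apply]
    rw [h3, map_mul, AlgEquiv.symm_apply_apply]
    simp only [Units.coe_map, MonoidHom.coe_coe]

lemma exists_semi_of_mem_normalizer [Finite K] (g : (Module.End F K)ˣ)
    (hg : g ∈ Subgroup.normalizer (singer F K : Set (Module.End F K)ˣ)) : ∃ p, semi p = g := by
  rw [Subgroup.mem_normalizer_iff] at hg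
  have hg1 : (g : Module.End F K) 1 ≠ 0 := by
    intro h0
    have h1 := unit_inv_apply g (1 : K)
    rw [h0, map_zero] at h1
    exact zero_ne_one h1
  have key : ∀ a x : K, (g : Module.End F K) (a * x)
      = ((g : Module.End F K) a * ((g : Module.End F K) 1)⁻¹) * (g : Module.End F K) x := by
    intro a x
    by_cases ha : a = 0
    · subst ha
      simp
    · have hm : mulUnit F (Units.mk0 a ha) ∈ singer F K := ⟨_, rfl⟩
      obtain ⟨b, hb⟩ := (mem_singer_iff _).mp ((hg _).mp hm)
      have hb' : ∀ y : K, (g : Module.End F K) (a * y) = b * (g : Module.End F K) y := by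
        intro y
        have h1 := hb ((g : Module.End F K) y)
        rw [Units.val_mul, Units.val_mul, Module.End.mul_apply, Module.End.mul_apply,
          unit_inv_apply, mulUnit_apply] at h1
        simpa using h1
      have h1 := hb' 1
      rw [mul_one] at h1
      rw [hb' x, h1, mul_assoc (b : K), mul_inv_cancel₀ hg1, mul_one]
  let τ : K →ₐ[F] K :=
    { toFun := fun a => (g : Module.End F K) a * ((g : Module.End F K) 1)⁻¹
      map_one' := mul_inv_cancel₀ hg1
      map_mul' := fun a b => by
        rw [key a b]
        ring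
      map_zero' := by simp
      map_add' := fun a b => by rw [map_add, add_mul]
      commutes' := fun c => by
        rw [Algebra.algebraMap_eq_smul_one, map_smul, smul_mul_assoc, mul_inv_cancel₀ hg1] }
  have hτ : Function.Bijective τ := Finite.injective_iff_bijective.mp τ.toRingHom.injective
  refine ⟨(Units.mk0 _ hg1, AlgEquiv.ofBijective τ hτ), Units.ext (LinearMap.ext fun x => ?_)⟩
  rw [semi_apply]
  change (g : Module.End F K) 1 * ((g : Module.End F K) x * ((g : Module.End F K) 1)⁻¹) = _
  field_simp

/-- The normaliser of the Singer group has order `[K : F] * (|K| - 1)`. -/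
theorem card_normalizer_singer [Fintype F] [Fintype K] :
    Nat.card (Subgroup.normalizer (singer F K : Set (Module.End F K)ˣ))
      = finrank F K * (Fintype.card K - 1) := by
  have h1 : Nat.card (Subgroup.normalizer (singer F K : Set (Module.End F K)ˣ))
      = Nat.card (Set.range (semi (F := F) (K := K))) := by
    apply Nat.card_congr
    apply Equiv.subtypeEquivRight
    intro g
    constructor
    · intro hg
      exact exists_semi_of_mem_normalizer g hg
    · rintro ⟨p, rfl⟩
      exact semi_mem_normalizer p
  rw [h1, Nat.card_congr (Equiv.ofInjective _ semi_injective).symm, Nat.card_prod, Nat.card_units,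
    Nat.card_eq_fintype_card, IsGalois.card_aut_eq_finrank, mul_comm]

/-- The elements `a` of `K` whose multiplication map is a `g`-conjugate of a multiplication map. -/
def interAlg (g : (Module.End F K)ˣ) : Subalgebra F K where
  carrier := {a | ∃ b : K, Algebra.lmul F K a
    = (g : Module.End F K) * Algebra.lmul F K b * ((g⁻¹ : (Module.End F K)ˣ) : Module.End F K)}
  mul_mem' := by
    rintro a a' ⟨b, hb⟩ ⟨b', hb'⟩
    refine ⟨b * b', ?_⟩
    rw [map_mul, map_mul, hb, hb']
    simp only [mul_assoc]
    congr 2
    rw [← mul_assoc _ (g : Module.End F K), Units.inv_mul, one_mul]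
  add_mem' := by
    rintro a a' ⟨b, hb⟩ ⟨b', hb'⟩
    exact ⟨b + b', by rw [map_add, map_add, hb, hb', mul_add, add_mul]⟩
  algebraMap_mem' := by
    intro c
    refine ⟨algebraMap F K c, ?_⟩
    rw [AlgHom.commutes, Algebra.algebraMap_eq_smul_one, mul_smul_comm, mul_one, smul_mul_assoc,
      Units.mul_inv]

lemma mem_interAlg (g : (Module.End F K)ˣ) (a : K) :
    a ∈ interAlg g ↔ ∃ b : K, Algebra.lmul F K a
      = (g : Module.End F K) * Algebra.lmul F K b * ((g⁻¹ : (Module.End F K)ˣ) : Module.End F K) :=
  Iff.rfl

/-- For `a ≠ 0` in `interAlg g`, the multiplication by `a` is the conjugate of a Singer element. -/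
lemma exists_unit_of_mem_interAlg (g : (Module.End F K)ˣ) (a : Kˣ) (ha : (a : K) ∈ interAlg g) :
    ∃ b : Kˣ, mulUnit F a = g * mulUnit F b * g⁻¹ := by
  obtain ⟨b, hb⟩ := ha
  have hb0 : b ≠ 0 := by
    rintro rfl
    rw [map_zero, mul_zero, zero_mul] at hb
    have h1 : (Algebra.lmul F K (a : K)) 1 = 0 := by rw [hb]; rfl
    simp at h1
  refine ⟨Units.mk0 b hb0, Units.ext ?_⟩
  rw [Units.val_mul, Units.val_mul]
  exact hb

/-- The intersection of the Singer group with a conjugate that is not the Singer group itself has
order `q ^ r - 1` for a proper divisor `r` of `[K : F]`. -/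
theorem singer_inter_conj [Fintype F] [Fintype K] (g : (Module.End F K)ˣ)
    (hg : (singer F K).map (MulAut.conj g).toMonoidHom ≠ singer F K) :
    ∃ r : ℕ, 1 ≤ r ∧ r ∣ finrank F K ∧ r < finrank F K ∧
      Nat.card ↥((singer F K).map (MulAut.conj g).toMonoidHom ⊓ singer F K)
        ∣ Fintype.card F ^ r - 1 := by
  classical
  have := finite_end_units (F := F) (K := K)
  let E : IntermediateField F K :=
    Subalgebra.toIntermediateField' (interAlg g) (Subalgebra.isField_of_algebraic _)
  have hE : ∀ a : K, a ∈ E ↔ a ∈ interAlg g := fun a => Iff.rfl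
  have hpos : 0 < finrank F E := Module.finrank_pos
  have hmul : finrank F E * finrank E K = finrank F K := Module.finrank_mul_finrank F E K
  have hposK : 0 < finrank E K := Module.finrank_pos
  refine ⟨finrank F E, hpos, Dvd.intro _ hmul, ?_, ?_⟩
  · -- properness
    by_contra hnot
    have hle : finrank F E ≤ finrank F K := Nat.le_of_dvd (by rw [← hmul]; positivity) (Dvd.intro _ hmul)
    have heq : finrank F E = finrank F K := le_antisymm hle (not_lt.mp hnot)
    have htop : ∀ a : K, a ∈ interAlg g := by
      intro a
      have h1 : E.toSubalgebra.toSubmodule = ⊤ := Submodule.eq_top_of_finrank_eq heq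
      have h2 : a ∈ E.toSubalgebra.toSubmodule := by rw [h1]; trivial
      exact h2
    apply hg
    symm
    apply Subgroup.eq_of_le_of_card_ge
    · intro h hh
      obtain ⟨a, rfl⟩ := hh
      obtain ⟨b, hb⟩ := exists_unit_of_mem_interAlg g a (htop a)
      exact ⟨mulUnit F b, ⟨b, rfl⟩, hb.symm⟩
    · rw [Subgroup.card_map_of_injective (MulAut.conj g).injective]
  · -- the order of the intersection
    have hcard : Nat.card ↥((singer F K).map (MulAut.conj g).toMonoidHom ⊓ singer F K)
        = Nat.card Eˣ := by
      symm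
      apply Nat.card_congr
      refine Equiv.ofBijective
        (fun u : Eˣ => (⟨mulUnit F (Units.map (E.val : E →* K) u), ?_, ⟨_, rfl⟩⟩ :
          ↥((singer F K).map (MulAut.conj g).toMonoidHom ⊓ singer F K))) ⟨?_, ?_⟩
      · obtain ⟨b, hb⟩ := exists_unit_of_mem_interAlg g (Units.map (E.val : E →* K) u)
          ((hE _).mp (u : E).2)
        exact ⟨mulUnit F b, ⟨b, rfl⟩, hb.symm⟩
      · intro u v huv
        have h1 : mulUnit F (Units.map (E.val : E →* K) u)
            = mulUnit F (Units.map (E.val : E →* K) v) := congrArg Subtype.val huv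
        have h2 : ((u : E) : K) = ((v : E) : K) := by
          have h3 := congrArg (fun w : (Module.End F K)ˣ => (w : Module.End F K) 1) h1
          simpa using h3
        exact Units.ext (Subtype.ext h2)
      · rintro ⟨h, hh1, hh2⟩
        obtain ⟨a, rfl⟩ := hh2
        obtain ⟨x, ⟨b, rfl⟩, hx⟩ := hh1
        have ha : (a : K) ∈ E := by
          rw [hE]
          refine ⟨b, ?_⟩
          have h1 := congrArg (fun w : (Module.End F K)ˣ => (w : Module.End F K)) hx
          simp only [MulEquiv.toMonoidHom_eq_coe, MonoidHom.coe_coe, MulAut.conj_apply,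
            Units.val_mul] at h1
          exact h1.symm
        refine ⟨Units.mk0 ⟨a, ha⟩ (fun h0 => a.ne_zero (congrArg Subtype.val h0)), ?_⟩
        apply Subtype.ext
        change mulUnit F (Units.map (E.val : E →* K) (Units.mk0 ⟨a, ha⟩ _)) = mulUnit F a
        congr 1
        exact Units.ext rfl
    rw [hcard, Nat.card_units, Module.natCard_eq_pow_finrank (K := F) (V := E),
      Nat.card_eq_fintype_card]

end Cfsg.Agent.Lib.Helper95
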