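/-
Derived length of regular wreath products and of iterated wreath products.
-/
import Mathlib

set_option autoImplicit false

namespace Cfsg.Agent.Lib.Helper95.WreathDL

/-- derived length at most `k` -/
def DL (G : Type*) [Group G] (k : ℕ) : Prop := derivedSeries G k = ⊥

theorem DL_of_injective {G H : Type*} [Group G] [Group H] (f : G →* H)
    (hf : Function.Injective f) {k : ℕ} (h : DL H k) : DL G k := by
  unfold DL at *
  rw [eq_bot_iff]
  intro x hx
  have : f x ∈ derivedSeries H k := map_derivedSeries_le_derivedSeries f k ⟨x, hx, rfl⟩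
  rw [h, Subgroup.mem_bot] at this
  rw [Subgroup.mem_bot]
  exact hf (by rw [this, map_one])

theorem DL_mono {G : Type*} [Group G] {k k' : ℕ} (hk : k ≤ k') (h : DL G k) : DL G k' := by
  unfold DL at *
  rw [eq_bot_iff, ← h]
  exact derivedSeries_antitone G hk

theorem DL_of_two {G H₁ H₂ : Type*} [Group G] [Group H₁] [Group H₂] (f₁ : G →* H₁)
    (f₂ : G →* H₂) (hinj : ∀ x, f₁ x = 1 → f₂ x = 1 → x = 1) {k : ℕ} (h1 : DL H₁ k)
    (h2 : DL H₂ k) : DL G k := by
  unfold DL at *
  rw [eq_bot_iff]
  intro x hx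
  have e1 : f₁ x ∈ derivedSeries H₁ k := map_derivedSeries_le_derivedSeries f₁ k ⟨x, hx, rfl⟩
  have e2 : f₂ x ∈ derivedSeries H₂ k := map_derivedSeries_le_derivedSeries f₂ k ⟨x, hx, rfl⟩
  rw [h1, Subgroup.mem_bot] at e1
  rw [h2, Subgroup.mem_bot] at e2
  rw [Subgroup.mem_bot]
  exact hinj x e1 e2

/-- if `H ≤ derivedSeries G i` then the `j`-th derived subgroup of `H` lies in the `(i+j)`-th
derived subgroup of `G` -/
theorem map_derivedSeries_le_add {G : Type*} [Group G] (H : Subgroup G) (i : ℕ)
    (hH : H ≤ derivedSeries G i) (j : ℕ) :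
    (derivedSeries H j).map H.subtype ≤ derivedSeries G (i + j) := by
  induction j with
  | zero =>
    rw [derivedSeries_zero, ← MonoidHom.range_eq_map, Subgroup.range_subtype]
    exact hH
  | succ j ih =>
    rw [derivedSeries_succ, Subgroup.map_commutator, ← add_assoc, derivedSeries_succ]
    exact Subgroup.commutator_mono ih ih

/-- if the derived subgroup of `G` lies in `B` then `derivedSeries G (j+1)` lies in the image of
`derivedSeries B j` -/
theorem derivedSeries_succ_le_map {G : Type*} [Group G] (B : Subgroup G)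
    (hB : derivedSeries G 1 ≤ B) (j : ℕ) :
    derivedSeries G (j + 1) ≤ (derivedSeries B j).map B.subtype := by
  induction j with
  | zero =>
    rw [derivedSeries_zero, ← MonoidHom.range_eq_map, Subgroup.range_subtype]
    exact hB
  | succ j ih =>
    rw [derivedSeries_succ G (j + 1), derivedSeries_succ ↥B j, Subgroup.map_commutator]
    exact Subgroup.commutator_mono ih ih

open RegularWreathProduct
open scoped commutatorElement

/-- the base group of a regular wreath product -/
def base (D Q : Type*) [Group D] [Group Q] : Subgroup (D ≀ᵣ Q) :=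
  (rightHom : D ≀ᵣ Q →* Q).ker

theorem mem_base {D Q : Type*} [Group D] [Group Q] (w : D ≀ᵣ Q) :
    w ∈ base D Q ↔ w.right = 1 := Iff.rfl

/-- evaluation of the base group at a coordinate -/
def evalBase {D Q : Type*} [Group D] [Group Q] (x : Q) : base D Q →* D where
  toFun w := w.1.left x
  map_one' := rfl
  map_mul' a b := by
    have ha : (a : D ≀ᵣ Q).right = 1 := a.2
    show ((a : D ≀ᵣ Q) * (b : D ≀ᵣ Q)).left x = _
    rw [mul_left]
    simp [ha]

theorem DL_wreath {D Q : Type*} [Group D] [CommGroup Q] {j : ℕ} (h : DL D j) :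
    DL (D ≀ᵣ Q) (j + 1) := by
  have hB : derivedSeries (D ≀ᵣ Q) 1 ≤ base D Q := by
    rw [derivedSeries_one]
    exact Abelianization.commutator_subset_ker _
  have hbase : DL (base D Q) j := by
    unfold DL at *
    rw [eq_bot_iff]
    intro w hw
    rw [Subgroup.mem_bot]
    have hl : ∀ x, (w : D ≀ᵣ Q).left x = 1 := by
      intro x
      have : evalBase x w ∈ derivedSeries D j :=
        map_derivedSeries_le_derivedSeries (evalBase x) j ⟨w, hw, rfl⟩
      rw [h, Subgroup.mem_bot] at this
      exact this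
    apply Subtype.ext
    apply RegularWreathProduct.ext
    · funext x; exact hl x
    · exact w.2
  unfold DL at *
  rw [eq_bot_iff]
  refine (derivedSeries_succ_le_map (base D Q) hB j).trans ?_
  rw [hbase, Subgroup.map_bot]

theorem not_DL_wreath {D Q : Type*} [Group D] [Group Q] [Nontrivial Q] {j : ℕ}
    (h : ¬ DL D j) : ¬ DL (D ≀ᵣ Q) (j + 1) := by
  classical
  obtain ⟨q, hq⟩ := exists_ne (1 : Q)
  set H₁ : Subgroup (D ≀ᵣ Q) := base D Q ⊓ derivedSeries (D ≀ᵣ Q) 1 with hH₁
  let π : H₁ →* D := (evalBase (1 : Q)).comp (Subgroup.inclusion inf_le_left)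
  have hπ : Function.Surjective π := by
    intro d
    let a : D ≀ᵣ Q := ⟨Pi.mulSingle 1 d, 1⟩
    let b : D ≀ᵣ Q := inl q
    have hc1 : ⁅a, b⁆ ∈ derivedSeries (D ≀ᵣ Q) 1 :=
      Subgroup.commutator_mem_commutator (Subgroup.mem_top a) (Subgroup.mem_top b)
    have hc2 : ⁅a, b⁆ ∈ base D Q := by
      rw [mem_base, commutatorElement_def]
      simp [a, b]
    refine ⟨⟨⁅a, b⁆, hc2, hc1⟩, ?_⟩
    show (⁅a, b⁆ : D ≀ᵣ Q).left 1 = d
    rw [commutatorElement_def]
    have hq' : q⁻¹ ≠ 1 := inv_ne_one.mpr hq
    simp [a, b, mul_left, inv_left, Pi.mulSingle_apply, hq']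
  intro hDL
  apply h
  unfold DL at *
  rw [← map_derivedSeries_eq hπ j]
  have h1 : (derivedSeries H₁ j).map H₁.subtype ≤ derivedSeries (D ≀ᵣ Q) (1 + j) :=
    map_derivedSeries_le_add H₁ 1 inf_le_right j
  rw [add_comm, hDL, le_bot_iff, Subgroup.map_eq_bot_iff_of_injective _ H₁.subtype_injective]
    at h1
  rw [h1, Subgroup.map_bot]

theorem DL_iterated (G : Type*) [CommGroup G] (n : ℕ) : DL (IteratedWreathProduct G n) n := by
  induction n with
  | zero =>
    unfold DL
    rw [eq_bot_iff]
    intro x _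
    rw [Subgroup.mem_bot]
    exact Subsingleton.elim (α := PUnit) x 1
  | succ n ih => exact DL_wreath ih

theorem not_DL_iterated (G : Type*) [Group G] [Nontrivial G] (n : ℕ) :
    ¬ DL (IteratedWreathProduct G (n + 1)) n := by
  induction n with
  | zero =>
    unfold DL
    rw [derivedSeries_zero]
    intro h
    obtain ⟨g, hg⟩ := exists_ne (1 : G)
    have hall : ∀ w : IteratedWreathProduct G (0 + 1),
        w ∈ (⊥ : Subgroup (IteratedWreathProduct G (0 + 1))) := fun w => h ▸ Subgroup.mem_top w
    have hmem := hall (RegularWreathProduct.inl g : IteratedWreathProduct G 0 ≀ᵣ G)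
    have h1 : (RegularWreathProduct.inl g : IteratedWreathProduct G 0 ≀ᵣ G) = 1 :=
      Subgroup.mem_bot.mp hmem
    have := congrArg RegularWreathProduct.right h1
    exact hg this
  | succ n ih => exact not_DL_wreath ih

end Cfsg.Agent.Lib.Helper95.WreathDL
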